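import Mathlib
import Cfsg.Agent.S4195

namespace Cfsg.Agent.Lib.Helper70

universe u

theorem dvd_card_of_fibers {α β : Type*} [Finite α] [Finite β] (f : α → β) (d : ℕ)
    (h : ∀ b, d ∣ Nat.card {a // f a = b}) : d ∣ Nat.card α := by
  have := Fintype.ofFinite β
  rw [← Nat.card_congr (Equiv.sigmaFiberEquiv f), Nat.card_sigma]
  exact Finset.dvd_sum fun b _ => h b

theorem card_eq_mul_of_fibers {α β : Type*} [Finite α] [Finite β] (f : α → β) (m : ℕ)
    (h : ∀ b, Nat.card {a // f a = b} = m) : Nat.card α = Nat.card β * m := by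
  have := Fintype.ofFinite β
  rw [← Nat.card_congr (Equiv.sigmaFiberEquiv f), Nat.card_sigma,
    Finset.sum_congr rfl (fun b _ => h b)]
  simp [Nat.card_eq_fintype_card]

variable {G : Type*} [Group G]

/-- the number of `x` with `x^n` conjugate to `c` is the class size times the number of solutions of `x^n = c`. -/
theorem card_isConj_pow [Finite G] (c : G) (n : ℕ) :
    Nat.card {x : G // IsConj c (x ^ n)}
      = Nat.card {y : G // IsConj c y} * Nat.card {x : G // x ^ n = c} := by
  apply card_eq_mul_of_fibers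
    (fun x : {x : G // IsConj c (x ^ n)} => (⟨x.1 ^ n, x.2⟩ : {y : G // IsConj c y}))
  rintro ⟨y, hy⟩
  obtain ⟨g, hg⟩ := isConj_iff.mp hy
  refine Nat.card_congr ⟨fun a => ⟨g⁻¹ * a.1.1 * g, ?_⟩, fun x => ⟨⟨g * x.1 * g⁻¹, ?_⟩, ?_⟩, ?_, ?_⟩
  · have h1 : a.1.1 ^ n = y := congrArg Subtype.val a.2
    have h2 := conj_pow (a := g⁻¹) (b := a.1.1) (i := n)
    rw [inv_inv] at h2
    rw [h2, h1, ← hg]; group
  · rw [conj_pow, x.2, hg]; exact hy
  · apply Subtype.ext
    show (g * x.1 * g⁻¹) ^ n = y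
    rw [conj_pow, x.2, hg]
  · intro a
    apply Subtype.ext; apply Subtype.ext
    show g * (g⁻¹ * a.1.1 * g) * g⁻¹ = a.1.1
    group
  · intro x
    apply Subtype.ext
    show g⁻¹ * (g * x.1 * g⁻¹) * g = x.1
    group

theorem isConj_iff_eq_of_mem_center {c : G} (hc : c ∈ Subgroup.center G) (y : G) :
    IsConj c y ↔ y = c := by
  constructor
  · intro h
    obtain ⟨g, hg⟩ := isConj_iff.mp h
    rw [← hg, (Subgroup.mem_center_iff.mp hc g), mul_inv_cancel_right]
  · rintro rfl; exact IsConj.refl _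

/-- solutions of `x^n = c` all live in the centralizer of `c`. -/
theorem card_pow_eq_centralizer (c : G) (n : ℕ) :
    Nat.card {x : G // x ^ n = c}
      = Nat.card {x : ↥(Subgroup.centralizer ({c} : Set G)) //
          x ^ n = ⟨c, Subgroup.mem_centralizer_singleton_iff.mpr rfl⟩} := by
  refine Nat.card_congr ⟨fun x => ⟨⟨x.1, ?_⟩, ?_⟩, fun x => ⟨x.1.1, ?_⟩, ?_, ?_⟩
  · rw [Subgroup.mem_centralizer_singleton_iff]
    have h := ((Commute.refl x.1).pow_right n).eq
    rw [x.2] at h
    exact h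
  · apply Subtype.ext; exact x.2
  · exact congrArg Subtype.val x.2
  · intro x; rfl
  · intro x; rfl

theorem orderOf_eq_of_pow_prime_pow {p e : ℕ} (hp : p.Prime) {y c : G} (hy : y ^ p ^ e = c)
    (hc : p ∣ orderOf c) : orderOf y = p ^ e * orderOf c := by
  have hne : p ^ e ≠ 0 := pow_ne_zero _ hp.ne_zero
  have h1 : orderOf c = orderOf y / Nat.gcd (orderOf y) (p ^ e) := by
    rw [← hy, orderOf_pow' y hne]
  obtain ⟨i, hi, hgi⟩ := (Nat.dvd_prime_pow hp).mp (Nat.gcd_dvd_right (orderOf y) (p ^ e))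
  have h2 : orderOf y = p ^ i * orderOf c := by
    rw [h1, hgi, ← hgi]
    exact (Nat.mul_div_cancel' (Nat.gcd_dvd_left _ _)).symm
  rcases hi.lt_or_eq with hlt | rfl
  · exfalso
    have h3 : p ^ (i + 1) ∣ orderOf y := by
      rw [h2, pow_succ]; exact Nat.mul_dvd_mul_left _ hc
    have h4 : p ^ (i + 1) ∣ p ^ e := pow_dvd_pow p hlt
    have h5 : p ^ (i + 1) ∣ p ^ i := hgi ▸ Nat.dvd_gcd h3 h4
    exact absurd ((Nat.pow_dvd_pow_iff_le_right hp.one_lt).mp h5) (by omega)
  · exact h2

open scoped IsMulCommutative in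
/-- if `p ∣ o(c)` the solutions of `x^(p^e) = c` fall into blocks of size `p^e`. -/
theorem prime_pow_dvd_card_of_dvd_orderOf [Finite G] {p e : ℕ} (hp : p.Prime) (c : G)
    (hc : p ∣ orderOf c) : p ^ e ∣ Nat.card {x : G // x ^ p ^ e = c} := by
  apply dvd_card_of_fibers (fun x : {x : G // x ^ p ^ e = c} => Subgroup.zpowers x.1)
  intro H
  by_cases hne : Nonempty {a : {x : G // x ^ p ^ e = c} // Subgroup.zpowers a.1 = H}
  · obtain ⟨⟨⟨x0, hx0⟩, hH⟩⟩ := hne
    simp only at hH
    subst hH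
    have hcard : Nat.card {a : {x : G // x ^ p ^ e = c} // Subgroup.zpowers a.1 = Subgroup.zpowers x0}
        = Nat.card (powMonoidHom (p ^ e) : ↥(Subgroup.zpowers x0) →* ↥(Subgroup.zpowers x0)).ker := by
      have hx0m : x0 ∈ Subgroup.zpowers x0 := Subgroup.mem_zpowers x0
      refine Nat.card_congr ⟨fun a => ⟨⟨x0⁻¹ * a.1.1, ?_⟩, ?_⟩,
        fun u => ⟨⟨x0 * u.1.1, ?_⟩, ?_⟩, ?_, ?_⟩
      · have : a.1.1 ∈ Subgroup.zpowers x0 := by
          exact a.2.le (Subgroup.mem_zpowers a.1.1)
        exact mul_mem (inv_mem hx0m) this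
      · have ham : a.1.1 ∈ Subgroup.zpowers x0 := by
          exact a.2.le (Subgroup.mem_zpowers a.1.1)
        rw [MonoidHom.mem_ker, powMonoidHom_apply]
        have h1 : (⟨x0⁻¹ * a.1.1, mul_mem (inv_mem hx0m) ham⟩ : ↥(Subgroup.zpowers x0))
            = (⟨x0, hx0m⟩ : ↥(Subgroup.zpowers x0))⁻¹ * ⟨a.1.1, ham⟩ := rfl
        rw [h1, mul_pow, inv_pow, inv_mul_eq_one]
        apply Subtype.ext
        show x0 ^ p ^ e = a.1.1 ^ p ^ e
        rw [hx0, a.1.2]
      · have h1 : ((⟨x0, hx0m⟩ : ↥(Subgroup.zpowers x0)) * u.1) ^ p ^ e = ⟨x0, hx0m⟩ ^ p ^ e := by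
          have h2 : u.1 ^ p ^ e = 1 := u.2
          rw [mul_pow, h2, mul_one]
        have h3 := congrArg Subtype.val h1
        rw [← hx0]
        exact h3
      · have h1 : ((⟨x0, hx0m⟩ : ↥(Subgroup.zpowers x0)) * u.1) ^ p ^ e = ⟨x0, hx0m⟩ ^ p ^ e := by
          have h2 : u.1 ^ p ^ e = 1 := u.2
          rw [mul_pow, h2, mul_one]
        have h3 : (x0 * u.1.1) ^ p ^ e = c := by
          have h3 := congrArg Subtype.val h1
          rw [← hx0]
          exact h3
        show Subgroup.zpowers (x0 * u.1.1) = Subgroup.zpowers x0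
        apply Subgroup.eq_of_le_of_card_ge
        · rw [Subgroup.zpowers_le]
          exact mul_mem hx0m u.1.2
        · rw [Nat.card_zpowers, Nat.card_zpowers, orderOf_eq_of_pow_prime_pow hp hx0 hc,
            orderOf_eq_of_pow_prime_pow hp h3 hc]
      · intro a
        apply Subtype.ext; apply Subtype.ext
        show x0 * (x0⁻¹ * a.1.1) = a.1.1
        group
      · intro u
        apply Subtype.ext; apply Subtype.ext
        show x0⁻¹ * (x0 * u.1.1) = u.1.1
        group
    rw [hcard, IsCyclic.card_powMonoidHom_ker, Nat.card_zpowers,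
      orderOf_eq_of_pow_prime_pow hp hx0 hc, Nat.gcd_mul_right_left]
  · rw [not_nonempty_iff] at hne
    simp [Nat.card_of_isEmpty]

/-- translation by a central root. -/
theorem card_pow_eq_of_central_root {w : G} (hw : w ∈ Subgroup.center G) (n : ℕ) :
    Nat.card {x : G // x ^ n = w ^ n} = Nat.card {x : G // x ^ n = 1} := by
  have hcomm : ∀ x : G, Commute x w := fun x => (Subgroup.mem_center_iff.mp hw x)
  refine Nat.card_congr ⟨fun x => ⟨x.1 * w⁻¹, ?_⟩, fun x => ⟨x.1 * w, ?_⟩, ?_, ?_⟩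
  · rw [((hcomm x.1).inv_right).mul_pow, x.2, inv_pow, mul_inv_cancel]
  · rw [(hcomm x.1).mul_pow, x.2, one_mul]
  · intro x; apply Subtype.ext; simp
  · intro x; apply Subtype.ext; simp

/-- the central elements of order prime to `p`. -/
def centerPrime (G : Type*) [Group G] (p : ℕ) (hp : p.Prime) : Subgroup G where
  carrier := {z | z ∈ Subgroup.center G ∧ ¬ p ∣ orderOf z}
  one_mem' := ⟨one_mem _, by rw [orderOf_one]; exact hp.one_lt.ne' ∘ Nat.dvd_one.mp⟩
  mul_mem' := by
    rintro a b ⟨ha, ha'⟩ ⟨hb, hb'⟩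
    refine ⟨mul_mem ha hb, fun h => ?_⟩
    have hcomm : Commute a b := (Subgroup.mem_center_iff.mp hb a)
    have h1 := h.trans hcomm.orderOf_mul_dvd_lcm
    have h2 := h1.trans (Nat.lcm_dvd_mul _ _)
    rcases (Nat.Prime.dvd_mul hp).mp h2 with h3 | h3
    · exact ha' h3
    · exact hb' h3
  inv_mem' := by
    rintro a ⟨ha, ha'⟩
    exact ⟨inv_mem ha, by rwa [orderOf_inv]⟩

theorem card_centerPrime_coprime [Finite G] (p : ℕ) (hp : p.Prime) :
    (Nat.card (centerPrime G p hp)).Coprime p := by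
  rw [Nat.coprime_comm, Nat.Prime.coprime_iff_not_dvd hp]
  intro h
  have : Fact p.Prime := ⟨hp⟩
  obtain ⟨x, hx⟩ := exists_prime_orderOf_dvd_card' p h
  have h2 : ¬ p ∣ orderOf (x : G) := x.2.2
  rw [Subgroup.orderOf_coe, hx] at h2
  exact h2 dvd_rfl

theorem card_pow_eq_of_central_coprime {p e : ℕ} (hp : p.Prime) {z : G}
    (hz : z ∈ Subgroup.center G) (hpz : ¬ p ∣ orderOf z) :
    Nat.card {x : G // x ^ p ^ e = z} = Nat.card {x : G // x ^ p ^ e = 1} := by
  have hcop : (p ^ e).Coprime (orderOf z) :=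
    Nat.Coprime.pow_left _ ((Nat.Prime.coprime_iff_not_dvd hp).mpr hpz)
  obtain ⟨m, hm⟩ := exists_pow_eq_self_of_coprime hcop
  have hw : (z ^ m) ^ p ^ e = z := by rw [← pow_mul, mul_comm, pow_mul, hm]
  have := card_pow_eq_of_central_root (pow_mem hz m) (p ^ e)
  rwa [hw] at this

theorem conj_eq_of_mem_center {c : G} (hc : c ∈ Subgroup.center G) (g : G) : g * c * g⁻¹ = c := by
  rw [(Subgroup.mem_center_iff.mp hc g), mul_inv_cancel_right]

/-- auxiliary step for products -/
theorem gcd_dvd_card_pow_mul [Finite G] (a b : ℕ)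
    (hT : ∀ y : G, Nat.gcd a (Nat.card G) ∣ Nat.card {x : G // IsConj y (x ^ a)})
    (c : G) (hc : c ∈ Subgroup.center G) :
    Nat.gcd a (Nat.card G) ∣ Nat.card {x : G // x ^ (a * b) = c} := by
  apply dvd_card_of_fibers (fun x : {x : G // x ^ (a * b) = c} => ConjClasses.mk (x.1 ^ a))
  intro D
  obtain ⟨y, rfl⟩ := ConjClasses.mk_surjective D
  by_cases hy : y ^ b = c
  · have : Nat.card {s : {x : G // x ^ (a * b) = c} // ConjClasses.mk (s.1 ^ a) = ConjClasses.mk y}
        = Nat.card {x : G // IsConj y (x ^ a)} := by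
      refine Nat.card_congr ⟨fun s => ⟨s.1.1, (ConjClasses.mk_eq_mk_iff_isConj.mp s.2).symm⟩,
        fun x => ⟨⟨x.1, ?_⟩, ConjClasses.mk_eq_mk_iff_isConj.mpr x.2.symm⟩, ?_, ?_⟩
      · obtain ⟨g, hg⟩ := isConj_iff.mp x.2
        rw [pow_mul, ← hg, conj_pow, hy, conj_eq_of_mem_center hc]
      · intro s; rfl
      · intro x; rfl
    rw [this]
    exact hT y
  · have : IsEmpty {s : {x : G // x ^ (a * b) = c} // ConjClasses.mk (s.1 ^ a) = ConjClasses.mk y} := by
      constructor
      rintro ⟨⟨x, hx⟩, hs⟩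
      obtain ⟨g, hg⟩ := isConj_iff.mp (ConjClasses.mk_eq_mk_iff_isConj.mp hs)
      apply hy
      simp only at hg
      rw [← hg, conj_pow, ← pow_mul, hx, conj_eq_of_mem_center hc]
    simp [Nat.card_of_isEmpty]

/-- **Frobenius' theorem**, central version: for central `c`, `gcd(n, |G|)` divides the number of
solutions of `x ^ n = c`. -/
theorem gcd_dvd_card_pow_eq_central_aux : ∀ (m : ℕ) (G : Type u) [Group G] [Finite G],
    Nat.card G = m → ∀ (n : ℕ) (c : G), c ∈ Subgroup.center G →
      Nat.gcd n (Nat.card G) ∣ Nat.card {x : G // x ^ n = c} := by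
  intro m
  induction m using Nat.strong_induction_on with
  | _ m IH =>
  intro G _ _ hm
  have stepA : ∀ (n : ℕ) (y : G), y ∉ Subgroup.center G →
      Nat.gcd n (Nat.card G) ∣ Nat.card {x : G // IsConj y (x ^ n)} := by
    intro n y hy
    set C := Subgroup.centralizer ({y} : Set G) with hC
    have hCne : C ≠ ⊤ := by
      intro h
      apply hy
      rw [Subgroup.mem_center_iff]
      intro g
      have : g ∈ C := h ▸ Subgroup.mem_top g
      exact Subgroup.mem_centralizer_singleton_iff.mp this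
    have hlt : Nat.card C < m := by
      rw [← hm]
      exact lt_of_le_of_ne (Subgroup.card_le_card_group C)
        (fun h => hCne (Subgroup.eq_top_of_card_eq C h))
    have hyC : y ∈ C := Subgroup.mem_centralizer_singleton_iff.mpr rfl
    have hcen : (⟨y, hyC⟩ : ↥C) ∈ Subgroup.center ↥C := by
      rw [Subgroup.mem_center_iff]
      intro g
      apply Subtype.ext
      exact (Subgroup.mem_centralizer_singleton_iff.mp g.2)
    have h1 := IH _ hlt ↥C rfl n ⟨y, hyC⟩ hcen
    rw [← card_pow_eq_centralizer] at h1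
    rw [card_isConj_pow, Cfsg.Agent.S4195.card_isConj_eq_index]
    have h2 : Nat.card G = C.index * Nat.card C := by rw [mul_comm, Subgroup.card_mul_index]
    rw [h2]
    exact (Nat.gcd_mul_right_dvd_mul_gcd n C.index (Nat.card C)).trans
      (Nat.mul_dvd_mul (Nat.gcd_dvd_right _ _) h1)
  have stepT : ∀ (n : ℕ), (∀ c : G, c ∈ Subgroup.center G →
      Nat.gcd n (Nat.card G) ∣ Nat.card {x : G // x ^ n = c}) → ∀ y : G,
      Nat.gcd n (Nat.card G) ∣ Nat.card {x : G // IsConj y (x ^ n)} := by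
    intro n hn y
    by_cases hy : y ∈ Subgroup.center G
    · rw [Nat.card_congr (Equiv.subtypeEquivRight fun x => isConj_iff_eq_of_mem_center hy (x ^ n))]
      exact hn y hy
    · exact stepA n y hy
  intro n
  induction n using Nat.recOnPrimeCoprime with
  | zero =>
    intro c hc
    simp only [pow_zero, Nat.gcd_zero_left]
    by_cases h1 : (1 : G) = c
    · simp [h1]
    · simp [h1]
  | prime_pow p e hp =>
    set d := Nat.gcd (p ^ e) (Nat.card G) with hd
    have hdp : d ∣ p ^ e := Nat.gcd_dvd_left _ _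
    have hdg : d ∣ Nat.card G := Nat.gcd_dvd_right _ _
    have hone : d ∣ Nat.card {x : G // x ^ p ^ e = 1} := by
      set Z' := centerPrime G p hp with hZ'
      have hsplit : Nat.card G
          = Nat.card {x : G // x ^ p ^ e ∈ Z'} + Nat.card {x : G // ¬ x ^ p ^ e ∈ Z'} := by
        classical
        rw [← Nat.card_sum]; exact (Nat.card_congr (Equiv.sumCompl _)).symm
      have hA : Nat.card {x : G // x ^ p ^ e ∈ Z'}
          = Nat.card Z' * Nat.card {x : G // x ^ p ^ e = 1} := by
        apply card_eq_mul_of_fibers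
          (fun x : {x : G // x ^ p ^ e ∈ Z'} => (⟨x.1 ^ p ^ e, x.2⟩ : ↥Z'))
        rintro ⟨z, hz⟩
        rw [← card_pow_eq_of_central_coprime hp hz.1 hz.2 (e := e)]
        exact Nat.card_congr ⟨fun s => ⟨s.1.1, congrArg Subtype.val s.2⟩,
          fun x => ⟨⟨x.1, by rw [x.2]; exact hz⟩, Subtype.ext x.2⟩, fun s => rfl, fun x => rfl⟩
      have hB : d ∣ Nat.card {x : G // ¬ x ^ p ^ e ∈ Z'} := by
        apply dvd_card_of_fibers
          (fun x : {x : G // ¬ x ^ p ^ e ∈ Z'} => ConjClasses.mk (x.1 ^ p ^ e))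
        intro D
        obtain ⟨y, rfl⟩ := ConjClasses.mk_surjective D
        by_cases hy : y ∈ Z'
        · have : IsEmpty {s : {x : G // ¬ x ^ p ^ e ∈ Z'} //
              ConjClasses.mk (s.1 ^ p ^ e) = ConjClasses.mk y} := by
            constructor
            rintro ⟨⟨x, hx⟩, hs⟩
            apply hx
            have := (isConj_iff_eq_of_mem_center hy.1 _).mp
              (ConjClasses.mk_eq_mk_iff_isConj.mp hs).symm
            simp only at this
            rw [this]; exact hy
          simp [Nat.card_of_isEmpty]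
        · have : Nat.card {s : {x : G // ¬ x ^ p ^ e ∈ Z'} //
              ConjClasses.mk (s.1 ^ p ^ e) = ConjClasses.mk y}
              = Nat.card {x : G // IsConj y (x ^ p ^ e)} := by
            refine Nat.card_congr
              ⟨fun s => ⟨s.1.1, (ConjClasses.mk_eq_mk_iff_isConj.mp s.2).symm⟩,
               fun x => ⟨⟨x.1, ?_⟩, ConjClasses.mk_eq_mk_iff_isConj.mpr x.2.symm⟩,
               fun s => rfl, fun x => rfl⟩
            intro hx
            apply hy
            have := (isConj_iff_eq_of_mem_center hx.1 _).mp x.2.symm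
            rw [this]; exact hx
          rw [this]
          by_cases hyc : y ∈ Subgroup.center G
          · rw [Nat.card_congr (Equiv.subtypeEquivRight
              fun x => isConj_iff_eq_of_mem_center hyc (x ^ p ^ e))]
            have hpy : p ∣ orderOf y := by
              by_contra h; exact hy ⟨hyc, h⟩
            exact hdp.trans (prime_pow_dvd_card_of_dvd_orderOf hp y hpy)
          · exact stepA _ y hyc
      have h3 : d ∣ Nat.card Z' * Nat.card {x : G // x ^ p ^ e = 1} := by
        rw [← hA]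
        exact (Nat.dvd_add_left hB).mp (hsplit ▸ hdg)
      have hcop : d.Coprime (Nat.card Z') := by
        have := card_centerPrime_coprime (G := G) p hp
        exact Nat.Coprime.of_dvd_left hdp (Nat.Coprime.pow_left e this.symm)
      exact hcop.dvd_of_dvd_mul_left h3
    intro c hc
    by_cases hpc : p ∣ orderOf c
    · exact hdp.trans (prime_pow_dvd_card_of_dvd_orderOf hp c hpc)
    · rw [card_pow_eq_of_central_coprime hp hc hpc]; exact hone
  | coprime a b ha hb hab iha ihb =>
    intro c hc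
    rw [Nat.gcd_comm, Nat.Coprime.gcd_mul _ hab]
    apply Nat.Coprime.mul_dvd_of_dvd_of_dvd
    · exact Nat.Coprime.gcd_both _ _ hab
    · rw [Nat.gcd_comm]; exact gcd_dvd_card_pow_mul a b (stepT a iha) c hc
    · rw [Nat.gcd_comm, mul_comm a b]; exact gcd_dvd_card_pow_mul b a (stepT b ihb) c hc

/-- **Frobenius' theorem**, central version. -/
theorem gcd_dvd_card_pow_eq_central [Finite G] (n : ℕ) {c : G} (hc : c ∈ Subgroup.center G) :
    Nat.gcd n (Nat.card G) ∣ Nat.card {x : G // x ^ n = c} :=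
  gcd_dvd_card_pow_eq_central_aux _ G rfl n c hc

/-- **Frobenius' theorem**: `gcd(n, |G|)` divides the number of solutions of `x ^ n = 1`. -/
theorem gcd_dvd_card_pow_eq_one [Finite G] (n : ℕ) :
    Nat.gcd n (Nat.card G) ∣ Nat.card {x : G // x ^ n = 1} :=
  gcd_dvd_card_pow_eq_central n (one_mem _)

/-- **Frobenius' theorem** (P. Hall's form): `gcd(n, |C_G(c)|)` divides the number of solutions of
`x ^ n = c`. -/
theorem gcd_dvd_card_pow_eq [Finite G] (n : ℕ) (c : G) :
    Nat.gcd n (Nat.card (Subgroup.centralizer ({c} : Set G))) ∣ Nat.card {x : G // x ^ n = c} := by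
  rw [card_pow_eq_centralizer]
  apply gcd_dvd_card_pow_eq_central
  rw [Subgroup.mem_center_iff]
  intro g
  apply Subtype.ext
  exact (Subgroup.mem_centralizer_singleton_iff.mp g.2)

end Cfsg.Agent.Lib.Helper70
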