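import Cfsg.Agent.Lib.Helper78.RegGenChar

set_option autoImplicit false

namespace Cfsg.Agent.Lib.Helper70.BFRG

open Cfsg Cfsg.Agent.Lib.Helper78

/-- an elementary group is nilpotent. -/
theorem isNilpotent_of_isElementary {E : Type*} [Group E] [Finite E] {q : ℕ} (hq : q.Prime)
    (hE : IsElementary q E) : Group.IsNilpotent E := by
  obtain ⟨x, hxc, -, k, hk⟩ := hE
  have hzc : Subgroup.zpowers x ≤ Subgroup.center E := by
    rw [Subgroup.zpowers_le]; exact hxc
  have hn : (Subgroup.zpowers x).Normal := normal_of_le_center' hzc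
  have : Fact q.Prime := ⟨hq⟩
  have hpg : IsPGroup q (E ⧸ Subgroup.zpowers x) := by
    apply IsPGroup.of_card (n := k)
    rw [← Subgroup.index_eq_card, hk]
  have : Group.IsNilpotent (E ⧸ Subgroup.zpowers x) := hpg.isNilpotent
  apply Subgroup.isNilpotent_of_ker_le_center (QuotientGroup.mk' (Subgroup.zpowers x))
  rw [QuotientGroup.ker_mk']
  exact hzc

/-- criterion for `e ↦ e ^ N` to be multiplicative. -/
theorem pow_mul_of_normal {E : Type*} [Group E] (H P : Subgroup E) [H.Normal] [P.Normal]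
    (hHP : H ⊓ P = ⊥) (N : ℕ) (h1 : ∀ e : E, e ^ N ∈ H) (h2 : ∀ e : E, e⁻¹ * e ^ N ∈ P) (a b : E) :
    (a * b) ^ N = a ^ N * b ^ N := by
  have hH : (a ^ N * b ^ N)⁻¹ * (a * b) ^ N ∈ H :=
    H.mul_mem (H.inv_mem (H.mul_mem (h1 a) (h1 b))) (h1 _)
  have hq : ∀ e : E, (QuotientGroup.mk (e ^ N) : E ⧸ P) = QuotientGroup.mk e := by
    intro e
    exact (QuotientGroup.eq.2 (h2 e)).symm
  have hP : (a ^ N * b ^ N)⁻¹ * (a * b) ^ N ∈ P := by
    rw [← QuotientGroup.eq, QuotientGroup.mk_mul, hq, hq, hq, QuotientGroup.mk_mul]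
  have : (a ^ N * b ^ N)⁻¹ * (a * b) ^ N ∈ H ⊓ P := ⟨hH, hP⟩
  rw [hHP, Subgroup.mem_bot, inv_mul_eq_one] at this
  exact this.symm

theorem isGeneralizedCharacter_comp_pow {G : Type*} [Group G] [Finite G] (hBr : BrauerChar G)
    {p : ℕ} (hp : p.Prime) {χ : G → ℂ} (hχ : IsCharacter G χ) (N : ℕ)
    (hN0 : p ^ (Nat.card G).factorization p ∣ N)
    (hN1 : N ≡ 1 [MOD Nat.card G / p ^ (Nat.card G).factorization p]) :
    IsGeneralizedCharacter G (fun g => χ (g ^ N)) := by
  have : Fact p.Prime := ⟨hp⟩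
  refine hBr _ ?_ ?_
  · intro g h
    simp only
    rw [conj_pow, Helper74.IsCharacter.isClassFunction hχ]
  · intro E q hq hE
    obtain ⟨H, hHn, hH, j, hj⟩ := exists_normal_p_complement_of_isElementary hp hq hE
    have hnil := isNilpotent_of_isElementary hq hE
    obtain ⟨P⟩ : Nonempty (Sylow p E) := inferInstance
    have hPn : (P : Subgroup E).Normal := inferInstance
    have hHP : H ⊓ (P : Subgroup E) = ⊥ := by
      have hcop : Nat.Coprime (Nat.card H) (Nat.card (P : Subgroup E)) := by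
        obtain ⟨i, hi⟩ := IsPGroup.iff_card.1 P.2
        rw [hi]
        exact Nat.Coprime.pow_right _ ((Nat.Prime.coprime_iff_not_dvd hp).2 hH).symm
      exact (Subgroup.disjoint_of_coprime_natCard hcop).eq_bot
    have hja : p ^ j ∣ N := by
      have h1 : p ^ j ∣ Nat.card G := by
        rw [← hj]
        exact (H.index_dvd_card).trans (Subgroup.card_subgroup_dvd_card E)
      exact (pow_dvd_pow p ((Nat.Prime.pow_dvd_iff_le_factorization hp Nat.card_pos.ne').1 h1)).trans hN0
    have h1 : ∀ e : E, e ^ N ∈ H := by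
      intro e
      rw [← QuotientGroup.eq_one_iff, QuotientGroup.mk_pow]
      obtain ⟨c, rfl⟩ := hja
      rw [pow_mul, ← hj, Subgroup.index_eq_card, pow_card_eq_one', one_pow]
    have h2 : ∀ e : E, e⁻¹ * e ^ N ∈ (P : Subgroup E) := by
      intro e
      rw [← QuotientGroup.eq, QuotientGroup.mk_pow]
      have hd : orderOf (QuotientGroup.mk e : E ⧸ (P : Subgroup E)) ∣
          Nat.card G / p ^ (Nat.card G).factorization p := by
        have ha : orderOf (QuotientGroup.mk e : E ⧸ (P : Subgroup E)) ∣ (P : Subgroup E).index := by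
          rw [Subgroup.index_eq_card]; exact orderOf_dvd_natCard _
        have hb : (P : Subgroup E).index ∣ Nat.card G :=
          ((P : Subgroup E).index_dvd_card).trans (Subgroup.card_subgroup_dvd_card E)
        have hc : Nat.Coprime (P : Subgroup E).index (p ^ (Nat.card G).factorization p) :=
          Nat.Coprime.pow_right _ ((Nat.Prime.coprime_iff_not_dvd hp).2 P.not_dvd_index).symm
        have hmul : p ^ (Nat.card G).factorization p * (Nat.card G / p ^ (Nat.card G).factorization p)
            = Nat.card G := Nat.ordProj_mul_ordCompl_eq_self _ p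
        rw [← hmul] at hb
        exact ha.trans (hc.dvd_of_dvd_mul_left hb)
      have := (pow_eq_pow_iff_modEq (x := (QuotientGroup.mk e : E ⧸ (P : Subgroup E))) (n := N) (m := 1)).2
        (hN1.of_dvd hd)
      rw [this, pow_one]
    let φ : E →* E := MonoidHom.mk' (fun e => e ^ N) (pow_mul_of_normal H P hHP N h1 h2)
    refine ⟨_, 0, Helper74.IsCharacter.comp hχ (E.subtype.comp φ), Helper74.IsCharacter.zero, ?_⟩
    ext e
    simp [φ]

end Cfsg.Agent.Lib.Helper70.BFRG
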