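import Cfsg.Agent.Lib.Helper78.SubsecMajor2
import Cfsg.Agent.Lib.Helper35.KleinA
import Cfsg.Agent.Lib.Helper70.BFRG
import Cfsg.Agent.Lib.Helper26.Virtual

set_option autoImplicit false
set_option linter.unusedSectionVars false

namespace Cfsg.Agent.Lib.Helper70.BFQ

open Cfsg Cfsg.Agent.Lib.Helper78 Cfsg.Agent.Lib.Helper35
open scoped ComplexConjugate

variable {H : Type*} [Group H] [Fintype H] (Z : Subgroup H) [hZn : Z.Normal] [Fintype (H ⧸ Z)]
  {M : Ideal AlgInt} {p : ℕ}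

/-- the exponent extracting the `p'`-part. -/
theorem exists_exponent (hp : p.Prime) : ∃ N : ℕ, p ^ (Nat.card H).factorization p ∣ N ∧
    N ≡ 1 [MOD Nat.card H / p ^ (Nat.card H).factorization p] := by
  have hcop : Nat.Coprime (p ^ (Nat.card H).factorization p)
      (Nat.card H / p ^ (Nat.card H).factorization p) :=
    Nat.Coprime.pow_left _ (Nat.coprime_ordCompl hp Nat.card_pos.ne')
  obtain ⟨N, hN0, hN1⟩ := Nat.chineseRemainder hcop 0 1
  exact ⟨N, (Nat.modEq_zero_iff_dvd).1 hN0, hN1⟩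

theorem pow_eq_self_of_regular (hp : p.Prime) {N : ℕ}
    (hN1 : N ≡ 1 [MOD Nat.card H / p ^ (Nat.card H).factorization p]) {s : H}
    (hs : ¬ p ∣ orderOf s) : s ^ N = s := by
  have hd : orderOf s ∣ Nat.card H / p ^ (Nat.card H).factorization p := by
    have hb : orderOf s ∣ Nat.card H := orderOf_dvd_natCard s
    have hc : Nat.Coprime (orderOf s) (p ^ (Nat.card H).factorization p) :=
      Nat.Coprime.pow_right _ ((Nat.Prime.coprime_iff_not_dvd hp).2 hs).symm
    have hmul : p ^ (Nat.card H).factorization p * (Nat.card H / p ^ (Nat.card H).factorization p)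
        = Nat.card H := Nat.ordProj_mul_ordCompl_eq_self _ p
    rw [← hmul] at hb
    exact hc.dvd_of_dvd_mul_left hb
  have := (pow_eq_pow_iff_modEq (x := s) (n := N) (m := 1)).2 (hN1.of_dvd hd)
  rw [this, pow_one]

theorem pow_eq_one_of_pgroup (hp : p.Prime) {N : ℕ}
    (hN0 : p ^ (Nat.card H).factorization p ∣ N) (hZp : IsPGroup p Z) {z : H} (hz : z ∈ Z) :
    z ^ N = 1 := by
  obtain ⟨k, hk⟩ := hZp ⟨z, hz⟩
  have hk' : z ^ p ^ k = 1 := by
    have := congrArg Subtype.val hk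
    simpa using this
  obtain ⟨i, -, hi⟩ := (Nat.dvd_prime_pow hp).1 (orderOf_dvd_of_pow_eq_one hk')
  have h1 : p ^ i ∣ Nat.card H := hi ▸ orderOf_dvd_natCard z
  have h2 : i ≤ (Nat.card H).factorization p :=
    (Nat.Prime.pow_dvd_iff_le_factorization hp Nat.card_pos.ne').1 h1
  apply orderOf_dvd_iff_pow_eq_one.1
  rw [hi]
  exact (pow_dvd_pow p h2).trans hN0

open Classical in
theorem exists_quot_vector [Fact p.Prime] (hM : IsPModular p M) (hZc : Z ≤ Subgroup.center H)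
    (hZp : IsPGroup p Z) {b : Set (IrrCharacter H)} (hb : IsPBlock M b) (v : IrrCharacter H → ℤ) :
    ∃ w : IrrCharacter (H ⧸ Z) → ℤ, ∀ s : H, ¬ p ∣ orderOf s →
      Vr p b v s = Vr p (quotSet Z b) w (s : H ⧸ Z) := by
  have hp : p.Prime := Fact.out
  obtain ⟨N, hN0, hN1⟩ := exists_exponent (H := H) hp
  have hBr : BrauerChar H := fun θ hθ hE => Cfsg.Agent.S0164.result θ hθ hE
  -- the generalized character
  set Θ : H → ℂ := ∑ ζ ∈ Finset.univ.filter (· ∈ b), (v ζ) • (fun g : H => (ζ : H → ℂ) (g ^ N)) with hΘ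
  have hΘg : IsGeneralizedCharacter H Θ := by
    apply Cfsg.Agent.Lib.Helper26.gen_sum
    intro ζ _
    apply Cfsg.Agent.Lib.Helper26.gen_zsmul
    exact BFRG.isGeneralizedCharacter_comp_pow hBr hp
      (Cfsg.Agent.Lib.Helper3.IsIrrCharacter.isCharacter ζ.2) N hN0 hN1
  have hΘa : ∀ g : H, Θ g = ∑ ζ ∈ Finset.univ.filter (· ∈ b), (v ζ : ℂ) * (ζ : H → ℂ) (g ^ N) := by
    intro g
    simp [hΘ, Finset.sum_apply]
  obtain ⟨hcf, hint⟩ := Cfsg.Agent.Lib.Helper3.isGeneralizedCharacter_iff.1 hΘg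
  choose m hm using hint
  have hexp := Cfsg.Agent.Lib.Helper3.classFunction_expansion hcf
  have hexp' : ∀ g : H, Θ g = ∑ ξ : IrrCharacter H, (m ξ : ℂ) * (ξ : H → ℂ) g := by
    intro g
    conv_lhs => rw [hexp]
    simp [Finset.sum_apply, hm]
  -- invariance under `Z`
  have hΘz : ∀ z ∈ Z, ∀ g : H, Θ (z * g) = Θ g := by
    intro z hz g
    have hc : Commute z g := (Subgroup.mem_center_iff.1 (hZc hz) g).symm
    rw [hΘa, hΘa, hc.mul_pow, pow_eq_one_of_pgroup Z hp hN0 hZp hz, one_mul]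
  have hker : ∀ ξ : IrrCharacter H, m ξ ≠ 0 → ∀ z ∈ Z, (ξ : H → ℂ) z = (ξ : H → ℂ) 1 := by
    intro ξ hξ z hz
    have hzc : ∀ t : H, t * z = z * t := fun t => Subgroup.mem_center_iff.1 (hZc hz) t
    have h1 : classInner Θ (ξ : H → ℂ) = conj ((ξ : H → ℂ) z / (ξ : H → ℂ) 1) * classInner Θ (ξ : H → ℂ) := by
      have h0 : ∑ g : H, Θ g * conj ((ξ : H → ℂ) g)
          = ∑ g : H, Θ (z * g) * conj ((ξ : H → ℂ) (z * g)) :=
        (Equiv.sum_comp (Equiv.mulLeft z) (fun g : H => Θ g * conj ((ξ : H → ℂ) g))).symm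
      conv_lhs => rw [classInner, h0]
      rw [classInner, mul_left_comm]
      congr 1
      rw [Finset.mul_sum]
      refine Finset.sum_congr rfl fun g _ => ?_
      rw [hΘz z hz, irr_central_mul ξ hzc, map_mul]
      ring
    rw [hm] at h1
    have hm0 : ((m ξ : ℤ) : ℂ) ≠ 0 := by exact_mod_cast hξ
    have h2 : conj ((ξ : H → ℂ) z / (ξ : H → ℂ) 1) = 1 := by
      have h3 : (conj ((ξ : H → ℂ) z / (ξ : H → ℂ) 1) - 1) * ((m ξ : ℤ) : ℂ) = 0 := by
        rw [sub_mul, one_mul, ← h1, sub_self]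
      exact sub_eq_zero.1 ((mul_eq_zero.1 h3).resolve_right hm0)
    have h4 : (ξ : H → ℂ) z / (ξ : H → ℂ) 1 = 1 := by
      have := congrArg conj h2
      rwa [Complex.conj_conj, map_one] at this
    have h5 : (ξ : H → ℂ) 1 ≠ 0 := Cfsg.Agent.Lib.Helper3.IsIrrCharacter.apply_one_ne_zero ξ.2
    rwa [div_eq_one_iff_eq h5] at h4
  -- block orthogonality
  set A : H → ℂ := fun s => ∑ ζ ∈ Finset.univ.filter (· ∈ b), ((v ζ : ℂ) - (m ζ : ℂ)) * (ζ : H → ℂ) s with hA
  set B : H → ℂ := fun s => ∑ ξ ∈ Finset.univ.filter (· ∉ b), (m ξ : ℂ) * (ξ : H → ℂ) s with hB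
  have hAB : ∀ s : H, ¬ p ∣ orderOf s → A s = B s := by
    intro s hs
    have h1 := hΘa s
    rw [pow_eq_self_of_regular hp hN1 hs, hexp' s,
      ← Finset.sum_filter_add_sum_filter_not Finset.univ (· ∈ b)] at h1
    simp only [hA, hB, sub_mul, Finset.sum_sub_distrib]
    rw [← h1]
    ring
  have hort : ∑ s : H, (if ¬ p ∣ orderOf s then A s * conj (B s) else 0) = 0 := by
    have h1 : ∀ s : H, (if ¬ p ∣ orderOf s then A s * conj (B s) else 0)
        = ∑ ζ ∈ Finset.univ.filter (· ∈ b), ∑ ξ ∈ Finset.univ.filter (· ∉ b),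
          ((v ζ : ℂ) - (m ζ : ℂ)) * (m ξ : ℂ) *
          (if ¬ p ∣ orderOf s then (ζ : H → ℂ) s * conj ((ξ : H → ℂ) s) else 0) := by
      intro s
      by_cases hs : p ∣ orderOf s
      · simp [hs]
      · simp only [if_pos hs, hA, hB]
        rw [map_sum, Finset.sum_mul_sum]
        refine Finset.sum_congr rfl fun ζ _ => Finset.sum_congr rfl fun ξ _ => ?_
        rw [map_mul, map_intCast]
        ring
    rw [Finset.sum_congr rfl fun s _ => h1 s, Finset.sum_comm]
    refine Finset.sum_eq_zero fun ζ hζ => ?_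
    rw [Finset.sum_comm]
    refine Finset.sum_eq_zero fun ξ hξ => ?_
    rw [← Finset.mul_sum, sum_regular_eq_zero hM hb (Finset.mem_filter.1 hζ).2 (Finset.mem_filter.1 hξ).2,
      mul_zero]
  have hA0 : ∀ s : H, ¬ p ∣ orderOf s → A s = 0 := by
    have h1 : ∑ s : H, (if ¬ p ∣ orderOf s then Complex.normSq (A s) else 0) = 0 := by
      have h2 : ((∑ s : H, (if ¬ p ∣ orderOf s then Complex.normSq (A s) else 0) : ℝ) : ℂ) = 0 := by
        rw [← hort]
        push_cast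
        refine Finset.sum_congr rfl fun s _ => ?_
        by_cases hs : p ∣ orderOf s
        · simp [hs]
        · simp only [if_pos hs]
          rw [← hAB s hs, Complex.mul_conj]
      exact_mod_cast h2
    intro s hs
    have h3 := (Finset.sum_eq_zero_iff_of_nonneg (fun s _ => by
      split_ifs
      · exact le_refl _
      · exact Complex.normSq_nonneg _)).1 h1 s (Finset.mem_univ s)
    rw [if_pos hs] at h3
    exact Complex.normSq_eq_zero.1 h3
  -- conclusion
  refine ⟨fun ψ => m (Cfsg.Agent.Lib.Helper80.inflateEquiv Z ψ).1, fun s hs => ?_⟩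
  have hs' : ¬ p ∣ orderOf (s : H ⧸ Z) := fun h => hs (h.trans (orderOf_map_dvd (QuotientGroup.mk' Z) s))
  simp only [Vr, if_pos hs, if_pos hs']
  have h1 : ∑ ζ ∈ Finset.univ.filter (· ∈ b), (v ζ : ℂ) * (ζ : H → ℂ) s
      = ∑ ζ ∈ Finset.univ.filter (· ∈ b), (m ζ : ℂ) * (ζ : H → ℂ) s := by
    have := hA0 s hs
    simp only [hA, sub_mul, Finset.sum_sub_distrib] at this
    exact sub_eq_zero.1 this
  rw [h1]
  have h2 := Cfsg.Agent.Lib.Helper80.sum_filter_ker_eq Z
    (fun χ : IrrCharacter H => if χ ∈ b then (m χ : ℂ) * (χ : H → ℂ) s else 0)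
  have h3 : ∑ ζ ∈ Finset.univ.filter (· ∈ b), (m ζ : ℂ) * (ζ : H → ℂ) s
      = ∑ χ ∈ Finset.univ.filter (fun χ : IrrCharacter H => ∀ n ∈ Z, (χ : H → ℂ) n = (χ : H → ℂ) 1),
        (if χ ∈ b then (m χ : ℂ) * (χ : H → ℂ) s else 0) := by
    rw [Finset.sum_filter, Finset.sum_filter]
    refine Finset.sum_congr rfl fun χ _ => ?_
    by_cases hk : ∀ n ∈ Z, (χ : H → ℂ) n = (χ : H → ℂ) 1
    · rw [if_pos hk]
    · rw [if_neg hk]
      have hm0 : m χ = 0 := by
        by_contra hne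
        exact hk (hker χ hne)
      simp [hm0]
  rw [h3]
  refine Eq.trans ?_ (h2.trans ?_)
  · congr!
  · rw [Finset.sum_filter]
    congr!

end Cfsg.Agent.Lib.Helper70.BFQ
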