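import Mathlib
import Cfsg.Agent.Lib.Lead.Cores
import Cfsg.Agent.Lib.Helper1.Hall
import Cfsg.Agent.Lib.Helper1.Tools
import Cfsg.Agent.Lib.Helper76.PSolvable
import Cfsg.Agent.Lib.Helper63.PLength

set_option autoImplicit false

namespace Cfsg.Agent.Lib.Helper70.MaxPNilp
open Cfsg Subgroup
open Cfsg.Agent.Lib.Lead Cfsg.Agent.Lib.Helper1
open scoped Pointwise

universe u
variable {G : Type u} [Group G] [Finite G]

/-- Frattini-type lemma: a normal `p`-subgroup `R ≤ Φ(G)` of a group with `O_{p'}(G) = 1` has no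
normal overgroup `L > R` with `L/R` a `p'`-group. -/
theorem eq_of_le_coatoms {p : ℕ} [hp : Fact p.Prime] (hcore : pPrimeCore p G = ⊥) (R L : Subgroup G)
    [hRn : R.Normal] [hLn : L.Normal]
    (hR : IsPGroup p R) (hRΦ : ∀ M : Subgroup G, IsCoatom M → R ≤ M) (hRL : R ≤ L)
    (hcop : (R.relIndex L).Coprime p) : L = R := by
  obtain ⟨n, hn⟩ := hR.exists_card_eq
  have hnR : ∀ X : Subgroup G, X ≤ normalizer (R : Set G) := fun X => by
    rw [normalizer_eq_top_iff.mpr hRn]; exact le_top
  obtain ⟨Q, hQL, hQcard, hQsup⟩ := sz_exists_rel R L hRL (hnR L)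
    (by rw [hn]; exact (Nat.Coprime.pow_left n hcop.symm))
  have hsolv : Group.IsSolvable R := by
    have := hR.isNilpotent
    infer_instance
  have hN : normalizer (Q : Set G) = ⊤ := by
    by_contra hne
    obtain ⟨M, hM, hle⟩ := (eq_top_or_exists_le_coatom _).resolve_left hne
    have : (⊤ : Subgroup G) ≤ M := by
      intro g _
      have h1 : MulAut.conj g • Q ≤ Q ⊔ R := by
        rw [hQsup, ← Subgroup.Normal.conj_smul_eq_self g L]
        exact Subgroup.pointwise_smul_le_pointwise_smul_iff.2 hQL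
      obtain ⟨k, hk, hkeq⟩ := sz_conj_rel R Q (MulAut.conj g • Q) (hnR Q)
        (by rw [hQcard, hn]; exact (Nat.Coprime.pow_right n hcop)) (Or.inr hsolv) h1
        (card_conj_smul g Q)
      have h2 : k⁻¹ * g ∈ normalizer (Q : Set G) := by
        rw [mem_normalizer_iff_conj_smul, conj_mul_smul, ← hkeq, ← conj_mul_smul]
        simp
      have h3 : g = k * (k⁻¹ * g) := by group
      rw [h3]
      exact M.mul_mem (hRΦ M hM hk) (hle h2)
    exact hM.1 (top_le_iff.mp this)
  have hQn : Q.Normal := normalizer_eq_top_iff.mp hN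
  have h4 : Q ≤ pPrimeCore p G := Lead.le_pPrimeCore hQn (by rw [hQcard]; exact hcop)
  rw [hcore, le_bot_iff] at h4
  rw [← hQsup, h4, bot_sup_eq]

/-- A normal subgroup `K` with `K ∩ O_p(G) ≤ Φ(G)` lies in `O_p(G)` (`G` `p`-soluble, `O_{p'}(G)=1`). -/
theorem le_pCore_of_inf_le_coatoms {p : ℕ} [hp : Fact p.Prime] (hsol : IsPSolvable p G)
    (hcore : pPrimeCore p G = ⊥) (K : Subgroup G) [hKn : K.Normal]
    (hK : ∀ M : Subgroup G, IsCoatom M → K ⊓ pCore p G ≤ M) : K ≤ pCore p G := by
  obtain ⟨n, H, h0, hlast, hmono, hnorm, hstep⟩ := hsol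
  obtain ⟨R, hRdef⟩ : ∃ R, R = K ⊓ pCore p G := ⟨_, rfl⟩
  have hRn : R.Normal := by rw [hRdef]; infer_instance
  have hRp : IsPGroup p R := by
    rw [hRdef]; exact (pCore_isPGroup p G).to_le inf_le_right
  have hRK : R ≤ K := by rw [hRdef]; exact inf_le_left
  rw [← hRdef] at hK
  have key : ∀ i : ℕ, ∀ hi : i < n + 1, K ⊓ H ⟨i, hi⟩ ≤ R := by
    intro i
    induction i with
    | zero =>
      intro hi
      have : H ⟨0, hi⟩ = ⊥ := h0
      rw [this]; simp
    | succ i ih =>
      intro hi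
      have hi' : i < n := by omega
      have ih' := ih (by omega)
      obtain ⟨A, hA⟩ : ∃ A, A = H (Fin.castSucc ⟨i, hi'⟩) := ⟨_, rfl⟩
      obtain ⟨B, hB⟩ : ∃ B, B = H (Fin.succ ⟨i, hi'⟩) := ⟨_, rfl⟩
      have e1 : H ⟨i, by omega⟩ = A := by rw [hA]; rfl
      have e2 : H ⟨i + 1, hi⟩ = B := by rw [hB]; rfl
      rw [e1] at ih'
      rw [e2]
      have hAn : A.Normal := by rw [hA]; exact hnorm _
      have hBn : B.Normal := by rw [hB]; exact hnorm _
      have hAB : A ≤ B := by
        rw [hA, hB]; exact hmono (Fin.castSucc_lt_succ).le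
      have hLn : ((K ⊓ B) ⊔ R).Normal := inferInstance
      have hd : R.relIndex ((K ⊓ B) ⊔ R) ∣ A.relIndex B := by
        rw [relIndex_sup_right]
        refine (relIndex_dvd_of_le_left (K ⊓ B) ih').trans ?_
        have h1 : (K ⊓ A).relIndex (K ⊓ B) = A.relIndex (K ⊓ B) := by
          rw [← inf_relIndex_right (K ⊓ A), ← inf_relIndex_right A]
          congr 1
          apply le_antisymm
          · exact le_inf (inf_le_left.trans inf_le_right) inf_le_right
          · exact le_inf (le_inf (inf_le_right.trans inf_le_left) inf_le_left) inf_le_right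
        rw [h1]
        exact Cfsg.Agent.Lib.Helper63.relIndex_dvd_of_le_right_of_normal A inf_le_right
      have hstep' := hstep ⟨i, hi'⟩
      rw [← hA, ← hB] at hstep'
      have hLR : (K ⊓ B) ⊔ R = R := by
        rcases hstep' with ⟨m, hm⟩ | hc
        · rw [hm] at hd
          obtain ⟨j, _, hj⟩ := (Nat.dvd_prime_pow hp.out).1 hd
          obtain ⟨r, hr⟩ := hRp.exists_card_eq
          have hcard : Nat.card ((K ⊓ B) ⊔ R : Subgroup G) = p ^ (j + r) := by
            rw [← relIndex_mul_card (le_sup_right : R ≤ (K ⊓ B) ⊔ R), hj, hr, pow_add]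
          have h2 : (K ⊓ B) ⊔ R ≤ pCore p G := Lead.le_pCore hLn (IsPGroup.of_card hcard)
          apply le_antisymm _ le_sup_right
          have h3 : (K ⊓ B) ⊔ R ≤ K ⊓ pCore p G := le_inf (sup_le inf_le_left hRK) h2
          rwa [← hRdef] at h3
        · exact eq_of_le_coatoms hcore R _ hRp hK le_sup_right (Nat.Coprime.coprime_dvd_left hd hc)
      exact le_sup_left.trans hLR.le
  have := key n (by omega)
  have e : H ⟨n, by omega⟩ = ⊤ := hlast
  rw [e, inf_top_eq, hRdef] at this
  exact this.trans inf_le_right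

/-- A maximal subgroup of prime index not containing `O_p(G)`. -/
theorem not_dvd_index_sup_normalCore {p : ℕ} [hp : Fact p.Prime] (M : Subgroup G) (hM : IsCoatom M)
    (hPM : ¬ pCore p G ≤ M) (hidx : M.index.Prime) :
    ¬ p ∣ (pCore p G ⊔ M.normalCore).index := by
  obtain ⟨n, hn⟩ := (pCore_isPGroup p G).exists_card_eq
  have htop : M ⊔ pCore p G = ⊤ := by
    apply hM.2
    exact lt_of_le_of_ne le_sup_left (fun h => hPM (by rw [h]; exact le_sup_right))
  have h1 := card_sup_mul_card_inf (H := M) (K := pCore p G)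
    (by rw [normalizer_eq_top_iff.mpr inferInstance]; exact le_top)
  rw [htop, card_top, ← card_mul_index M, mul_assoc] at h1
  have h2 : M.index * Nat.card (M ⊓ pCore p G : Subgroup G) = Nat.card (pCore p G) :=
    Nat.eq_of_mul_eq_mul_left Nat.card_pos h1
  have h3 : M.index ∣ p ^ n := by rw [← hn, ← h2]; exact dvd_mul_right _ _
  have h4 : M.index = p := (Nat.prime_dvd_prime_iff_eq hidx hp.out).1 (hidx.dvd_of_dvd_pow h3)
  have h5 : M.normalCore.index ∣ p.factorial := by
    rw [normalCore_eq_ker, index_ker]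
    have h6 := Subgroup.card_subgroup_dvd_card (MulAction.toPermHom G (G ⧸ M)).range
    rw [Nat.card_perm] at h6
    have h7 : Nat.card (G ⧸ M) = p := h4
    rwa [h7] at h6
  have h8 := relIndex_mul_index (le_sup_right : M.normalCore ≤ pCore p G ⊔ M.normalCore)
  rw [relIndex_sup_right] at h8
  have h9 : p ∣ M.normalCore.relIndex (pCore p G) := by
    have h10 : M.normalCore.relIndex (pCore p G) ∣ p ^ n := hn ▸ relIndex_dvd_card _ _
    obtain ⟨j, _, hj⟩ := (Nat.dvd_prime_pow hp.out).1 h10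
    rcases Nat.eq_zero_or_pos j with rfl | hjpos
    · rw [pow_zero, relIndex_eq_one] at hj
      exact absurd (hj.trans (normalCore_le M)) hPM
    · rw [hj]; exact dvd_pow_self p hjpos.ne'
  intro hdvd
  have h11 : p * p ∣ p.factorial := by
    refine dvd_trans ?_ h5
    rw [← h8]
    exact mul_dvd_mul h9 hdvd
  have hp1 : p = (p - 1) + 1 := by have := hp.out.pos; omega
  rw [hp1, Nat.factorial_succ, ← hp1] at h11
  have h12 : p ∣ (p - 1).factorial := Nat.dvd_of_mul_dvd_mul_left hp.out.pos h11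
  have := (hp.out.dvd_factorial).1 h12
  have := hp.out.pos
  omega

theorem main_core {p : ℕ} [hp : Fact p.Prime] (hsol : IsPSolvable p G) (hcore : pPrimeCore p G = ⊥)
    (hmax : ∀ M : Subgroup G, IsCoatom M →
      (∃ K : Subgroup ↥M, K.Normal ∧ ¬ p ∣ Nat.card K ∧ ∃ k : ℕ, K.index = p ^ k) ∨ (M.index).Prime) :
    ∃ C : Subgroup G, C.Normal ∧ pCore p G ≤ C ∧ ¬ p ∣ (pCore p G).relIndex C ∧
      ∃ k : ℕ, C.index = p ^ k := by
  obtain ⟨n, hn⟩ := (pCore_isPGroup p G).exists_card_eq
  by_cases hcase : ∃ M : Subgroup G, IsCoatom M ∧ ¬ pCore p G ≤ M ∧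
      ∃ K : Subgroup ↥M, K.Normal ∧ ¬ p ∣ Nat.card K ∧ ∃ k : ℕ, K.index = p ^ k
  · obtain ⟨M, hM, hPM, K, hKn, hKc, k, hk⟩ := hcase
    have htop : M ⊔ pCore p G = ⊤ := by
      apply hM.2
      exact lt_of_le_of_ne le_sup_left (fun h => hPM (by rw [h]; exact le_sup_right))
    have h1 := card_sup_mul_card_inf (H := M) (K := pCore p G)
      (by rw [normalizer_eq_top_iff.mpr inferInstance]; exact le_top)
    rw [htop, card_top, ← card_mul_index M, mul_assoc] at h1
    have h2 : M.index * Nat.card (M ⊓ pCore p G : Subgroup G) = Nat.card (pCore p G) :=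
      Nat.eq_of_mul_eq_mul_left Nat.card_pos h1
    have h3 : M.index ∣ p ^ n := by rw [← hn, ← h2]; exact dvd_mul_right _ _
    refine ⟨pCore p G ⊔ K.map M.subtype, ?_, le_sup_left, ?_, ?_⟩
    · rw [← normalizer_eq_top_iff, eq_top_iff, ← htop]
      apply sup_le
      · intro m hm
        rw [mem_normalizer_iff_conj_smul, Subgroup.smul_sup,
          Subgroup.Normal.conj_smul_eq_self m (pCore p G)]
        congr 1
        apply le_antisymm
        · rintro _ ⟨_, ⟨x, hx, rfl⟩, rfl⟩
          refine ⟨⟨m, hm⟩ * x * ⟨m, hm⟩⁻¹, hKn.conj_mem x hx _, ?_⟩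
          simp
        · rintro _ ⟨x, hx, rfl⟩
          refine ⟨m⁻¹ * x * m, ⟨⟨m, hm⟩⁻¹ * x * ⟨m, hm⟩, ?_, by simp⟩, ?_⟩
          · have := hKn.conj_mem x hx (⟨m, hm⟩⁻¹)
            simpa using this
          · simp [mul_assoc]
      · exact le_sup_left.trans le_normalizer
    · rw [relIndex_sup_left]
      intro hd
      apply hKc
      have := hd.trans (relIndex_dvd_card (pCore p G) (K.map M.subtype))
      rwa [card_map_of_injective M.subtype_injective] at this
    · have h4 : (pCore p G ⊔ K.map M.subtype).index ∣ (K.map M.subtype).index :=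
        index_dvd_of_le le_sup_right
      rw [index_map_subtype, hk] at h4
      have h5 : (pCore p G ⊔ K.map M.subtype).index ∣ p ^ (k + n) := by
        rw [pow_add]; exact h4.trans (mul_dvd_mul_left _ h3)
      obtain ⟨j, _, hj⟩ := (Nat.dvd_prime_pow hp.out).1 h5
      exact ⟨j, hj⟩
  · have hprime : ∀ M : Subgroup G, IsCoatom M → ¬ pCore p G ≤ M → M.index.Prime := by
      intro M hM hPM
      rcases hmax M hM with h | h
      · exact absurd ⟨M, hM, hPM, h⟩ hcase
      · exact h
    refine ⟨⊤, inferInstance, le_top, ?_, 0, by simp⟩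
    rw [relIndex_top_right]
    let 𝓜 := {M : Subgroup G // IsCoatom M ∧ ¬ pCore p G ≤ M}
    let K : Subgroup G := ⨅ M : 𝓜, M.1.normalCore
    let D : Subgroup G := ⨅ M : 𝓜, pCore p G ⊔ M.1.normalCore
    have hKn : K.Normal := normal_iInf_normal (fun M => inferInstance)
    have hDn : D.Normal := normal_iInf_normal (fun M => inferInstance)
    have hKP : K ≤ pCore p G := by
      apply le_pCore_of_inf_le_coatoms hsol hcore K
      intro M hM
      by_cases hPM : pCore p G ≤ M
      · exact inf_le_right.trans hPM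
      · exact inf_le_left.trans ((iInf_le _ (⟨M, hM, hPM⟩ : 𝓜)).trans (normalCore_le M))
    have hpowP : ∀ u ∈ pCore p G, u ^ (p ^ n) = 1 := by
      intro u hu
      have := pow_card_eq_one' (G := pCore p G) (x := ⟨u, hu⟩)
      rw [hn] at this
      simpa using congrArg Subtype.val this
    have hDp : IsPGroup p D := by
      rintro ⟨x, hx⟩
      refine ⟨n + n, ?_⟩
      have h1 : x ^ (p ^ n) ∈ K := by
        rw [mem_iInf]
        intro M
        have hxM : x ∈ pCore p G ⊔ M.1.normalCore := (mem_iInf.1 hx) M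
        rw [mem_sup_of_normal_right] at hxM
        obtain ⟨u, hu, k, hk, rfl⟩ := hxM
        rw [← QuotientGroup.eq_one_iff, QuotientGroup.mk_pow, QuotientGroup.mk_mul,
          (QuotientGroup.eq_one_iff k).2 hk, mul_one, ← QuotientGroup.mk_pow, hpowP u hu]
        rfl
      have h2 := hpowP _ (hKP h1)
      apply Subtype.ext
      simp only [SubmonoidClass.coe_pow, OneMemClass.coe_one]
      rw [pow_add, pow_mul, h2]
    have hDP : D ≤ pCore p G := Lead.le_pCore hDn hDp
    obtain ⟨S⟩ : Nonempty (Sylow p G) := inferInstance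
    have hSD : (S : Subgroup G) ≤ D := by
      apply le_iInf
      intro M
      exact Cfsg.Agent.Lib.Helper76.le_of_isPGroup_of_not_dvd_index _
        (not_dvd_index_sup_normalCore M.1 M.2.1 M.2.2 (hprime M.1 M.2.1 M.2.2)) S S.2
    intro hd
    exact S.not_dvd_index (hd.trans (index_dvd_of_le (hSD.trans hDP)))

theorem npc_map {p : ℕ} [hp : Fact p.Prime] {A B : Type*} [Group A] [Group B] [Finite A] (f : A →* B)
    (hf : Function.Surjective f)
    (h : ∃ K : Subgroup A, K.Normal ∧ ¬ p ∣ Nat.card K ∧ ∃ k : ℕ, K.index = p ^ k) :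
    ∃ K : Subgroup B, K.Normal ∧ ¬ p ∣ Nat.card K ∧ ∃ k : ℕ, K.index = p ^ k := by
  obtain ⟨K, hKn, hKc, k, hk⟩ := h
  refine ⟨K.map f, hKn.map f hf, fun hd => hKc (hd.trans (card_map_dvd K f)), ?_⟩
  have := index_map_dvd K hf
  rw [hk] at this
  obtain ⟨j, _, hj⟩ := (Nat.dvd_prime_pow hp.out).1 this
  exact ⟨j, hj⟩

/-- `p`-soluble, every maximal subgroup `p`-nilpotent or of prime index: `p`-length at most 2, ending
with a `p`-group on top. -/
theorem chain {p : ℕ} [hp : Fact p.Prime] (hsol : IsPSolvable p G)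
    (hmax : ∀ M : Subgroup G, IsCoatom M →
      (∃ K : Subgroup ↥M, K.Normal ∧ ¬ p ∣ Nat.card K ∧ ∃ k : ℕ, K.index = p ^ k) ∨ (M.index).Prime) :
    ∃ A B C : Subgroup G, A.Normal ∧ B.Normal ∧ C.Normal ∧ A ≤ B ∧ B ≤ C ∧ ¬ p ∣ Nat.card A ∧
      (∃ k : ℕ, A.relIndex B = p ^ k) ∧ ¬ p ∣ B.relIndex C ∧ ∃ k : ℕ, C.index = p ^ k := by
  have hsurj := QuotientGroup.mk'_surjective (pPrimeCore p G)
  obtain ⟨C, hCn, hPC, hrel, k, hk⟩ := main_core (G := G ⧸ pPrimeCore p G) (p := p)
    (Cfsg.Agent.Lib.Helper76.isPSolvable_quotient _ hsol) (pPrimeCore_quotient_pPrimeCore p G) (by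
      intro M hM
      have hM' := isCoatom_comap_of_surjective hsurj hM
      rcases hmax _ hM' with h | h
      · left
        exact npc_map ((QuotientGroup.mk' (pPrimeCore p G)).subgroupComap M)
          (MonoidHom.subgroupComap_surjective_of_surjective _ _ hsurj) h
      · right
        rwa [index_comap_of_surjective _ hsurj] at h)
  obtain ⟨n, hn⟩ := (pCore_isPGroup p (G ⧸ pPrimeCore p G)).exists_card_eq
  have hker : pPrimeCore p G = (⊥ : Subgroup (G ⧸ pPrimeCore p G)).comap (QuotientGroup.mk' _) := by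
    rw [MonoidHom.comap_bot, QuotientGroup.ker_mk']
  refine ⟨pPrimeCore p G, (pCore p (G ⧸ pPrimeCore p G)).comap (QuotientGroup.mk' _),
    C.comap (QuotientGroup.mk' _), inferInstance, inferInstance, hCn.comap _, ?_,
    comap_mono hPC, ?_, ⟨n, ?_⟩, ?_, ⟨k, ?_⟩⟩
  · conv_lhs => rw [hker]
    exact comap_mono bot_le
  · intro hd
    have := card_pPrimeCore_coprime (G := G) p
    exact hp.out.one_lt.ne' (Nat.eq_one_of_dvd_coprimes this hd dvd_rfl)
  · have h1 : (pPrimeCore p G).relIndex ((pCore p (G ⧸ pPrimeCore p G)).comap (QuotientGroup.mk' _)) =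
        ((⊥ : Subgroup (G ⧸ pPrimeCore p G)).comap (QuotientGroup.mk' _)).relIndex
          ((pCore p (G ⧸ pPrimeCore p G)).comap (QuotientGroup.mk' _)) := by
      congr 1
    rw [h1, relIndex_comap, map_comap_eq_self_of_surjective hsurj, relIndex_bot_left, hn]
  · rw [relIndex_comap, map_comap_eq_self_of_surjective hsurj]
    exact hrel
  · rw [index_comap_of_surjective _ hsurj, hk]

end Cfsg.Agent.Lib.Helper70.MaxPNilp
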