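import Cfsg.Agent.Lib.Helper31.TransferFixed
import Mathlib.GroupTheory.Sylow

set_option autoImplicit false

namespace Cfsg.Agent.Lib.Helper70

open MulAction Cfsg.Agent.Lib.Helper31

/-- Dual form of the Thompson transfer argument (no hypothesis on the index of `S`).
`x ∈ S` is an element such that only fixed cosets contribute to the transfer, each contributing `1` or a fixed
involution `s`, and `φ x = s`.  If the transfer kills `x`, then for each 2-subgroup `R` of `C_S(x)` there is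
`k ∉ S` with `k⁻¹ x k ∈ S`, `φ (k⁻¹ x k) = s` and `k⁻¹ R k ≤ S`. -/
theorem exists_other_conj_of_transfer_eq_one {G A : Type*} [Group G] [Finite G] [CommGroup A]
    (S : Subgroup G) (φ : S →* A) (x : G)
    (h : ∀ (k : G) (n : ℕ), 1 < n → n ∣ orderOf x → ∀ hk : k⁻¹ * x ^ n * k ∈ S, φ ⟨_, hk⟩ = 1)
    (s : A) (hs1 : s ≠ 1) (hs2 : s ^ 2 = 1)
    (hs : ∀ (k : G) (hk : k⁻¹ * x * k ∈ S), φ ⟨_, hk⟩ = 1 ∨ φ ⟨_, hk⟩ = s)
    (hV : MonoidHom.transfer φ x = 1) (R : Subgroup G) (hR : IsPGroup 2 ↥R)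
    (hRC : R ≤ Subgroup.centralizer {x}) (hRS : R ≤ S) (hxS : x ∈ S) (hφx : φ ⟨x, hxS⟩ = s) :
    ∃ (k : G) (hk : k⁻¹ * x * k ∈ S), k ∉ S ∧ φ ⟨_, hk⟩ = s ∧ ∀ r ∈ R, k⁻¹ * r * k ∈ S := by
  classical
  have : Fact (Nat.Prime 2) := ⟨Nat.prime_two⟩
  have := Fintype.ofFinite (G ⧸ S)
  -- the predicate on G
  let Pk : G → Prop := fun k => ∃ hk : k⁻¹ * x * k ∈ S, φ ⟨_, hk⟩ = s
  have hPk_mul : ∀ (k : G) (t : S), Pk k → Pk (k * t) := by
    rintro k t ⟨hk, hφ⟩
    have he : (k * t)⁻¹ * x * (k * t) = ((t⁻¹ * ⟨_, hk⟩ * t : S) : G) := by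
      simp only [Subgroup.coe_mul, Subgroup.coe_inv]; group
    refine ⟨he ▸ (t⁻¹ * ⟨_, hk⟩ * t : S).2, ?_⟩
    have : (⟨(k * t)⁻¹ * x * (k * t), he ▸ (t⁻¹ * ⟨_, hk⟩ * t : S).2⟩ : S) = t⁻¹ * ⟨_, hk⟩ * t :=
      Subtype.ext he
    rw [this, map_mul, map_mul, hφ, map_inv, mul_comm, ← mul_assoc, mul_inv_cancel, one_mul]
  have hPk_cent : ∀ (k r : G), r ∈ Subgroup.centralizer {x} → Pk k → Pk (r * k) := by
    rintro k r hr ⟨hk, hφ⟩
    have hrx : r * x = x * r := Subgroup.mem_centralizer_singleton_iff.mp hr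
    have he : (r * k)⁻¹ * x * (r * k) = k⁻¹ * x * k := by
      calc (r * k)⁻¹ * x * (r * k) = k⁻¹ * r⁻¹ * (x * r) * k := by group
        _ = k⁻¹ * r⁻¹ * (r * x) * k := by rw [hrx]
        _ = k⁻¹ * x * k := by group
    refine ⟨he ▸ hk, ?_⟩
    have : (⟨(r * k)⁻¹ * x * (r * k), he ▸ hk⟩ : S) = ⟨_, hk⟩ := Subtype.ext he
    rw [this, hφ]
  let Y : Set (G ⧸ S) := {c | Pk c.out}
  have hY : ∀ r : R, ∀ c ∈ Y, r • c ∈ Y := by
    intro r c hc
    have h1 : r • c = QuotientGroup.mk ((r : G) * c.out) := by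
      conv_lhs => rw [← QuotientGroup.out_eq' c]
      rfl
    obtain ⟨t, ht⟩ := QuotientGroup.mk_out_eq_mul S ((r : G) * c.out)
    show Pk (r • c).out
    rw [h1, ht]
    exact hPk_mul _ t (hPk_cent _ _ (hRC r.2) hc)
  have hmod := card_invariant_modEq 2 hR Y hY
  -- evaluate the transfer
  have hT := transfer_eq_prod_fixed S φ x h
  rw [hV] at hT
  have hterm : ∀ c : {c : G ⧸ S // x • c = c},
      φ ⟨c.1.out⁻¹ * x * c.1.out, conj_mem_of_smul_eq c.2⟩ = if c.1 ∈ Y then s else 1 := by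
    intro c
    by_cases hc : c.1 ∈ Y
    · rw [if_pos hc]
      obtain ⟨_, h2⟩ := hc
      exact h2
    · rw [if_neg hc]
      rcases hs c.1.out (conj_mem_of_smul_eq c.2) with h1 | h1
      · exact h1
      · exact absurd ⟨_, h1⟩ hc
  rw [Fintype.prod_congr _ _ hterm, Finset.prod_ite, Finset.prod_const_one, mul_one,
    Finset.prod_const] at hT
  have heven : Even (Finset.univ.filter (fun c : {c : G ⧸ S // x • c = c} => c.1 ∈ Y)).card := by
    by_contra hne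
    rw [Nat.not_even_iff_odd] at hne
    obtain ⟨m, hm⟩ := hne
    rw [hm, pow_succ, pow_mul, hs2, one_pow, one_mul] at hT
    exact hs1 hT.symm
  have hYcard : Nat.card Y = (Finset.univ.filter (fun c : {c : G ⧸ S // x • c = c} => c.1 ∈ Y)).card := by
    rw [← Fintype.card_subtype, ← Nat.card_eq_fintype_card]
    apply Nat.card_congr
    exact
      { toFun := fun c => ⟨⟨c.1, by
          obtain ⟨hk, _⟩ := c.2
          have : x • c.1 = c.1 := by
            conv_lhs => rw [← QuotientGroup.out_eq' c.1]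
            conv_rhs => rw [← QuotientGroup.out_eq' c.1]
            show (QuotientGroup.mk (x * c.1.out) : G ⧸ S) = QuotientGroup.mk c.1.out
            rw [eq_comm, QuotientGroup.eq, ← mul_assoc]
            exact hk
          exact this⟩, c.2⟩
        invFun := fun c => ⟨c.1.1, c.2⟩
        left_inv := fun c => rfl
        right_inv := fun c => rfl }
  have hfixeven : Nat.card {c : G ⧸ S // c ∈ Y ∧ ∀ r : R, r • c = c} % 2 = 0 := by
    have h1 : Nat.card Y % 2 = Nat.card {c : G ⧸ S // c ∈ Y ∧ ∀ r : R, r • c = c} % 2 := hmod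
    obtain ⟨m, hm⟩ := heven
    omega
  -- the trivial coset is a fixed point in `Y`
  have hPk1 : Pk 1 := ⟨by simpa using hxS, by
    have : (⟨(1 : G)⁻¹ * x * 1, by simpa using hxS⟩ : S) = ⟨x, hxS⟩ := Subtype.ext (by simp)
    rw [this, hφx]⟩
  have h0Y : (QuotientGroup.mk (1 : G) : G ⧸ S) ∈ Y := by
    obtain ⟨t, ht⟩ := QuotientGroup.mk_out_eq_mul S (1 : G)
    show Pk (QuotientGroup.mk (1 : G) : G ⧸ S).out
    rw [ht]
    exact hPk_mul _ t hPk1
  have h0fix : ∀ r : R, r • (QuotientGroup.mk (1 : G) : G ⧸ S) = QuotientGroup.mk (1 : G) := by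
    intro r
    show (QuotientGroup.mk ((r : G) * 1) : G ⧸ S) = QuotientGroup.mk 1
    rw [eq_comm, QuotientGroup.eq]
    simpa using hRS r.2
  -- hence there is another one
  have hex : ∃ c : {c : G ⧸ S // c ∈ Y ∧ ∀ r : R, r • c = c},
      c ≠ ⟨QuotientGroup.mk (1 : G), h0Y, h0fix⟩ := by
    by_contra hno
    push Not at hno
    have : Nat.card {c : G ⧸ S // c ∈ Y ∧ ∀ r : R, r • c = c} = 1 := by
      rw [Nat.card_eq_one_iff_unique]
      exact ⟨⟨fun a b => (hno a).trans (hno b).symm⟩, ⟨⟨_, h0Y, h0fix⟩⟩⟩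
    omega
  obtain ⟨⟨c, ⟨hk, hφ⟩, hfix⟩, hne⟩ := hex
  refine ⟨c.out, hk, ?_, hφ, fun r hr => conj_mem_of_smul_eq (hfix ⟨r, hr⟩)⟩
  intro hcS
  apply hne
  apply Subtype.ext
  show c = QuotientGroup.mk 1
  rw [← QuotientGroup.out_eq' c, QuotientGroup.eq]
  simpa using hcS

end Cfsg.Agent.Lib.Helper70
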